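import Cfsg.Agent.InvolConjTwo.Linear
import Cfsg.Agent.ClassConj.Unitary
import Cfsg.Prelude.Def_Classical
import Cfsg.Prelude.Def_LieClassical

/-!
# Involutions of the special unitary groups in characteristic two
-/

set_option autoImplicit false
set_option linter.all false

open Matrix Module Cfsg.Agent.Classical

namespace Cfsg.Agent.InvolConjTwo

variable {F : Type*} [Field F] {n q : ℕ}

theorem SU_conj_of_rank [Fintype F] [CharP F 2] (hF : Fintype.card F = q ^ 2)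
    (a b : ↥(Cfsg.SU n F q)) (ha : orderOf a = 2) (hb : orderOf b = 2)
    (h : (((a : Matrix.SpecialLinearGroup (Fin n) F) : Matrix (Fin n) (Fin n) F) - 1).rank
      = (((b : Matrix.SpecialLinearGroup (Fin n) F) : Matrix (Fin n) (Fin n) F) - 1).rank) :
    IsConj a b := by
  have hS : U.SqField F q := U.sqField_of_fintype hF
  let A : Matrix (Fin n) (Fin n) F := (a : Matrix.SpecialLinearGroup (Fin n) F)
  let B : Matrix (Fin n) (Fin n) F := (b : Matrix.SpecialLinearGroup (Fin n) F)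
  have hsq : ∀ x : ↥(Cfsg.SU n F q), orderOf x = 2 →
      ((x : Matrix.SpecialLinearGroup (Fin n) F) : Matrix (Fin n) (Fin n) F) *
        ((x : Matrix.SpecialLinearGroup (Fin n) F) : Matrix (Fin n) (Fin n) F) = 1 := by
    intro x hx
    have := pow_orderOf_eq_one x
    rw [hx, pow_two] at this
    exact congrArg (fun y : ↥(Cfsg.SU n F q) =>
      ((y : Matrix.SpecialLinearGroup (Fin n) F) : Matrix (Fin n) (Fin n) F)) this
  have hA : A * A = 1 := hsq a ha
  have hB : B * B = 1 := hsq b hb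
  let M : Matrix (Fin n) (Fin n) F := A - 1
  have hM : M * M = 0 := sq_zero_of_sq_eq_one hA
  have hM' : (B - 1) * (B - 1) = 0 := sq_zero_of_sq_eq_one hB
  have hAi : ∀ u v, U.herm q (A *ᵥ u) (A *ᵥ v) = U.herm q u v := fun u v => a.2 u v
  have hAs : ∀ u v, U.herm q (A *ᵥ u) v = U.herm q u (A *ᵥ v) := by
    intro u v
    have h1 := hAi u (A *ᵥ v)
    rwa [mulVec_mulVec, hA, one_mulVec] at h1
  have hMs : ∀ u v, U.herm q (M *ᵥ u) v = U.herm q u (M *ᵥ v) := by
    intro u v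
    simp only [M, sub_mulVec, one_mulVec]
    rw [U.herm_sub_left, hS.herm_sub_right, hAs]
  -- conjugacy in the general unitary group
  obtain ⟨g0, hg0⟩ := exists_GL_conj _ _ hM hM' h
  let a' : ↥(Cfsg.GU n F q) :=
    ⟨SpecialLinearGroup.toGL (a : Matrix.SpecialLinearGroup (Fin n) F), a.2⟩
  let b' : ↥(Cfsg.GU n F q) :=
    ⟨SpecialLinearGroup.toGL (b : Matrix.SpecialLinearGroup (Fin n) F), b.2⟩
  have hg0' : (g0 : Matrix (Fin n) (Fin n) F) * A = B * (g0 : Matrix (Fin n) (Fin n) F) := by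
    have := hg0
    simp only [M, mul_sub, sub_mul, mul_one, one_mul, sub_left_inj] at this
    exact this
  obtain ⟨g, hg⟩ := isConj_iff.1 (ClassConj.GU_isConj_of_isConj hS a' b'
    (isConj_iff.2 ⟨g0, mul_inv_eq_iff_eq_mul.2 (Units.ext hg0')⟩))
  let G : Matrix (Fin n) (Fin n) F := ((g : GL (Fin n) F) : Matrix (Fin n) (Fin n) F)
  have hG : G * A = B * G :=
    congrArg (fun y : ↥(Cfsg.GU n F q) => ((y : GL (Fin n) F) : Matrix (Fin n) (Fin n) F))
      (mul_inv_eq_iff_eq_mul.1 hg)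
  have hGdet : G.det ^ q * G.det = 1 := by
    have h1 := congrArg Matrix.det ((ClassConj.mem_GU_iff_cstar hS _).1 g.2)
    rw [det_mul, det_one, ClassConj.cstar, det_transpose, ← RingHom.mapMatrix_apply,
      ← RingHom.map_det] at h1
    exact h1
  have hd0 : G.det ≠ 0 := fun h0 => by rw [h0, mul_zero] at hGdet; exact zero_ne_one hGdet
  obtain ⟨μ, hμ⟩ := exists_sqrt (G.det)⁻¹
  have hμn : μ ^ q * μ = 1 := by
    apply (frobenius_inj F 2)
    simp only [frobenius_def, one_pow]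
    rw [mul_pow, ← pow_mul, mul_comm q 2, pow_mul, hμ, inv_pow, ← mul_inv, hGdet, inv_one]
  -- a vector `w` with `h(M w, w) ≠ 0`
  obtain ⟨w, hw⟩ : ∃ w, U.herm q (M *ᵥ w) w ≠ 0 := by
    by_contra hc
    push Not at hc
    have hne : M ≠ 0 := by
      intro h0
      have : a = 1 := Subtype.ext (Subtype.ext (sub_eq_zero.1 h0))
      rw [this, orderOf_one] at ha
      omega
    obtain ⟨c0, hc0⟩ : ∃ c : F, c ^ q ≠ c := by
      by_contra hc0
      push Not at hc0
      exact Forms.sqConj_ne_id hS (RingHom.ext hc0)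
    apply hne
    have hall : ∀ x y, U.herm q (M *ᵥ x) y = 0 := by
      intro x y
      have h1 := hc (x + y)
      simp only [mulVec_add, U.herm_add_left, hS.herm_add_right, hc, zero_add, add_zero] at h1
      have h2 := hc (x + c0 • y)
      simp only [mulVec_add, mulVec_smul, U.herm_add_left, hS.herm_add_right, U.herm_smul_left,
        U.herm_smul_right, hc, mul_zero, zero_add, add_zero] at h2
      have h3 : (c0 ^ q - c0) * U.herm q (M *ᵥ x) y = 0 := by linear_combination h2 - c0 * h1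
      exact (mul_eq_zero.1 h3).resolve_left (sub_ne_zero.2 hc0)
    apply Matrix.toLin'.injective
    refine LinearMap.ext fun x => ?_
    simp only [Matrix.toLin'_apply, zero_mulVec]
    exact hS.eq_zero_of_herm _ (hall x)
  let c : F := U.herm q (M *ᵥ w) w
  have hcq : c ^ q = c := by
    show (U.herm q (M *ᵥ w) w) ^ q = _
    rw [hS.herm_symm, ← hMs]
  let φ : Fin n → F := fun i => c⁻¹ * w i ^ q
  have hφx : ∀ x, φ ⬝ᵥ x = c⁻¹ * U.herm q x w := fun x => by
    simp only [dotProduct, φ, U.herm_def, Finset.mul_sum]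
    exact Finset.sum_congr rfl fun i _ => by ring
  have hφ : φ ⬝ᵥ (M *ᵥ w) = 1 := by rw [hφx]; exact inv_mul_cancel₀ hw
  obtain ⟨hcomm, hdet⟩ := det_planeScalar M hM w φ hφ μ
  -- its coordinates
  let α : (Fin n → F) → F := fun x => φ ⬝ᵥ (M *ᵥ x)
  let e : F := φ ⬝ᵥ w
  let P : Matrix (Fin n) (Fin n) F := vecMulVec w (φ ᵥ* M) +
      vecMulVec (M *ᵥ w) (φ - (φ ⬝ᵥ w) • (φ ᵥ* M))
  have hP : ∀ x, P *ᵥ x = α x • w + (φ ⬝ᵥ x - e * α x) • (M *ᵥ w) := by
    intro x
    simp only [P, add_mulVec, vecMulVec_mulVec, α, e, sub_dotProduct, smul_dotProduct,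
      dotProduct_mulVec, smul_eq_mul, op_smul_eq_smul]
  have heq : e ^ q = e := by
    show (φ ⬝ᵥ w) ^ q = φ ⬝ᵥ w
    rw [hφx, mul_pow, inv_pow, hcq, hS.herm_symm]
  have hwy : ∀ y, U.herm q w y = c * (φ ⬝ᵥ y) ^ q := fun y => by
    rw [hφx, mul_pow, inv_pow, hcq, hS.herm_symm, ← mul_assoc, mul_inv_cancel₀ hw, one_mul]
  have hMwy : ∀ y, U.herm q (M *ᵥ w) y = c * α y ^ q := fun y => by
    show _ = c * (φ ⬝ᵥ (M *ᵥ y)) ^ q
    rw [hφx, mul_pow, inv_pow, hcq, hS.herm_symm, ← mul_assoc, mul_inv_cancel₀ hw, one_mul, hMs]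
  have hxw : ∀ x, U.herm q x w = c * (φ ⬝ᵥ x) := fun x => by
    rw [hφx, ← mul_assoc, mul_inv_cancel₀ hw, one_mul]
  have hxMw : ∀ x, U.herm q x (M *ᵥ w) = c * α x := fun x => by
    show _ = c * (φ ⬝ᵥ (M *ᵥ x))
    rw [hφx, ← mul_assoc, mul_inv_cancel₀ hw, one_mul, hMs]
  have hPs : ∀ x y, U.herm q (P *ᵥ x) y = U.herm q x (P *ᵥ y) := by
    intro x y
    rw [hP, hP, U.herm_add_left, U.herm_smul_left, U.herm_smul_left, hS.herm_add_right,
      U.herm_smul_right, U.herm_smul_right, hwy, hMwy, hxw, hxMw, hS.sub_pow, mul_pow, heq]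
    ring
  have hPP : ∀ x, P *ᵥ (P *ᵥ x) = P *ᵥ x := by
    intro x
    have h1 : α (P *ᵥ x) = α x := by
      show φ ⬝ᵥ (M *ᵥ (P *ᵥ x)) = _
      rw [hP, mulVec_add, mulVec_smul, mulVec_smul, mulVec_mulVec w M M, hM, zero_mulVec, smul_zero,
        add_zero, dotProduct_smul, hφ, smul_eq_mul, mul_one]
    have h2 : φ ⬝ᵥ (P *ᵥ x) = φ ⬝ᵥ x := by
      rw [hP, dotProduct_add, dotProduct_smul, dotProduct_smul, hφ, smul_eq_mul, smul_eq_mul]
      show α x * e + _ = _
      ring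
    rw [hP (P *ᵥ x), h1, h2, ← hP]
  have hC : ∀ u v, U.herm q ((1 + (μ - 1) • P) *ᵥ u) ((1 + (μ - 1) • P) *ᵥ v) = U.herm q u v := by
    intro u v
    have h3 : U.herm q (P *ᵥ u) (P *ᵥ v) = U.herm q (P *ᵥ u) v := by
      rw [← hPs, hPP]
    simp only [add_mulVec, one_mulVec, smul_mulVec, U.herm_add_left, hS.herm_add_right,
      U.herm_smul_left, U.herm_smul_right, h3, ← hPs u v]
    rw [hS.sub_pow, one_pow]
    linear_combination (U.herm q (P *ᵥ u) v) * hμn
  let C : Matrix (Fin n) (Fin n) F := G * (1 + (μ - 1) • P)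
  let k : Matrix.SpecialLinearGroup (Fin n) F :=
    ⟨C, by show (G * _).det = 1; rw [det_mul, hdet, hμ, mul_inv_cancel₀ hd0]⟩
  have hk : k ∈ Cfsg.SU n F q := by
    intro u v
    show U.herm q (C *ᵥ u) (C *ᵥ v) = U.herm q u v
    simp only [C, ← mulVec_mulVec]
    exact (g.2 _ _).trans (hC u v)
  refine isConj_iff.2 ⟨⟨k, hk⟩, mul_inv_eq_iff_eq_mul.2 (Subtype.ext (Subtype.ext ?_))⟩
  show C * A = B * C
  have hcomm' : (1 + (μ - 1) • P) * A = A * (1 + (μ - 1) • P) := by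
    have := hcomm
    simp only [M, mul_sub, sub_mul, mul_one, one_mul, sub_left_inj] at this
    exact this
  rw [show C * A = G * ((1 + (μ - 1) • P) * A) from mul_assoc _ _ _, hcomm', ← mul_assoc, hG,
    mul_assoc]

end Cfsg.Agent.InvolConjTwo
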